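import Mathlib
import Cfsg.Prelude.Def_GeometricClasses

/-!
Transvections as elements of `Cfsg.Geo.specialLinear`, and membership in `Cfsg.Geo.subspaceStabilizer`.
-/
set_option autoImplicit false

namespace CfsgLib.GeoTransvection

open Matrix

variable {ι : Type} [Fintype ι] [DecidableEq ι] {F : Type*} [Field F]

/-- The transvection `x ↦ x + φ x • v`, `φ v = 0`, as an element of the special linear subgroup of GL. -/
theorem exists_transvection (v : ι → F) (φ : Module.Dual F (ι → F)) (hφ : φ v = 0) :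
    ∃ g ∈ Cfsg.Geo.specialLinear ι F, ∀ x, (g : Matrix ι ι F) *ᵥ x = x + φ x • v := by
  set r : ι → F := fun i => φ (Pi.single i 1) with hr
  have hdot : ∀ x, r ⬝ᵥ x = φ x := by
    intro x
    conv_rhs => rw [pi_eq_sum_univ' x, map_sum]
    simp only [dotProduct, hr, map_smul, smul_eq_mul, mul_comm]
  set M : Matrix ι ι F := 1 + vecMulVec v r with hM
  have hdet : M.det = 1 := by
    rw [hM, vecMulVec_eq Unit, det_one_add_replicateCol_mul_replicateRow, hdot, hφ, add_zero]
  refine ⟨GeneralLinearGroup.mkOfDetNeZero M (by rw [hdet]; exact one_ne_zero), ?_, fun x => ?_⟩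
  · rw [Cfsg.Geo.specialLinear, MonoidHom.mem_ker]
    exact Units.ext hdet
  · show M *ᵥ x = x + φ x • v
    rw [hM, add_mulVec, one_mulVec, vecMulVec_mulVec, op_smul_eq_smul, hdot]

theorem mem_subspaceStabilizer_iff (W : Submodule F (ι → F)) (g : GL ι F) :
    g ∈ Cfsg.Geo.subspaceStabilizer W ↔ ∀ x, x ∈ W ↔ (g : Matrix ι ι F) *ᵥ x ∈ W :=
  Iff.rfl

/-- If `U` is not fixed by all transvections fixing `W`, then the joint stabiliser of `W`, `U` in SL is not
maximal. -/
theorem joint_stabilizer_not_maximal {W U : Submodule F (ι → F)} (hW0 : W ≠ ⊥) (hW1 : W ≠ ⊤) (u v : ι → F)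
    (hu : u ∈ U) (hv : v ∉ U) (huv : u ∉ W ⊔ Submodule.span F {v}) :
    ∃ K : Subgroup (GL ι F),
      Cfsg.Geo.subspaceStabilizer W ⊓ Cfsg.Geo.subspaceStabilizer U ⊓ Cfsg.Geo.specialLinear ι F < K ∧
        K < Cfsg.Geo.specialLinear ι F := by
  refine ⟨Cfsg.Geo.subspaceStabilizer W ⊓ Cfsg.Geo.specialLinear ι F, ⟨?_, ?_⟩, ⟨inf_le_right, ?_⟩⟩
  · exact inf_le_inf_right _ inf_le_left
  · intro hle
    obtain ⟨φ, hφu, hφ⟩ := Submodule.exists_dual_map_eq_bot_of_notMem huv inferInstance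
    have hφ0 : ∀ x ∈ W ⊔ Submodule.span F {v}, φ x = 0 := fun x hx =>
      (Submodule.mem_bot F).mp (hφ ▸ Submodule.mem_map_of_mem hx)
    set ψ : Module.Dual F (ι → F) := (φ u)⁻¹ • φ with hψ
    have hψv : ψ v = 0 := by simp [hψ, hφ0 v (Submodule.mem_sup_right (Submodule.mem_span_singleton_self v))]
    obtain ⟨g, hgS, hg⟩ := exists_transvection v ψ hψv
    have hgW : g ∈ Cfsg.Geo.subspaceStabilizer W := by
      rw [mem_subspaceStabilizer_iff]
      have hfix : ∀ x ∈ W, (g : Matrix ι ι F) *ᵥ x = x := by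
        intro x hx; rw [hg]; simp [hψ, hφ0 x (Submodule.mem_sup_left hx)]
      intro x
      refine ⟨fun hx => (hfix x hx).symm ▸ hx, fun hx => ?_⟩
      rw [← mulVec_injective_of_isUnit g.isUnit (hfix _ hx)]
      exact hx
    have := ((hle ⟨hgW, hgS⟩).1.2 u).mp hu
    change (g : Matrix ι ι F) *ᵥ u ∈ U at this
    rw [hg, show ψ u = 1 by simp [hψ, inv_mul_cancel₀ hφu], one_smul] at this
    exact hv (by simpa using U.sub_mem this hu)
  · intro hle
    obtain ⟨w, hw, hw0⟩ := W.ne_bot_iff.mp hW0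
    obtain ⟨x, hx⟩ : ∃ x, x ∉ W := by
      by_contra h; push Not at h; exact hW1 (eq_top_iff.mpr fun y _ => h y)
    have hnot : w ∉ Submodule.span F {x} := by
      rw [Submodule.mem_span_singleton]
      rintro ⟨c, rfl⟩
      have hc : c ≠ 0 := fun h => hw0 (by simp [h])
      exact hx (by simpa [smul_smul, inv_mul_cancel₀ hc] using W.smul_mem c⁻¹ hw)
    obtain ⟨φ, hφw, hφ⟩ := Submodule.exists_dual_map_eq_bot_of_notMem hnot inferInstance
    have hφx : φ x = 0 := (Submodule.mem_bot F).mp (hφ ▸ Submodule.mem_map_of_mem (Submodule.mem_span_singleton_self x))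
    obtain ⟨g, hgS, hg⟩ := exists_transvection x ((φ w)⁻¹ • φ) (by simp [hφx])
    have := ((hle hgS).1 w).mp hw
    change (g : Matrix ι ι F) *ᵥ w ∈ W at this
    rw [hg, show ((φ w)⁻¹ • φ) w = 1 by simp [inv_mul_cancel₀ hφw], one_smul] at this
    exact hx (by simpa using W.sub_mem this hw)

end CfsgLib.GeoTransvection
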